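import Mathlib
import Cfsg.Agent.Lib.Compute.TC.A5.Final

/-!
# Extensions of an elementary abelian 2-group by `A₅` with element orders at most 5

Every lift of an element of order 3 has order 3 and acts freely on the kernel, so
`1 + b + b² = 0` on the kernel.  This gives an involution over every involution of `A₅`, hence
(relators `a³, b⁵, (ab)²`, all automatic on lifts) a section of the extension.
-/

set_option autoImplicit false

namespace Cfsg.Agent.Lib.CritA6

/-- The alternating group of degree five. -/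
abbrev A5 := alternatingGroup (Fin 5)

variable {G : Type*} [Group G]

/-- Standing hypotheses. -/
structure Ctx (N : Subgroup G) (π : G →* A5) : Prop where
  surj : Function.Surjective π
  ker : ∀ g, π g = 1 ↔ g ∈ N
  comm : ∀ x ∈ N, ∀ y ∈ N, x * y = y * x
  sq : ∀ x ∈ N, x * x = 1
  ord : ∀ g : G, orderOf g = 1 ∨ orderOf g = 2 ∨ orderOf g = 3 ∨ orderOf g = 4 ∨ orderOf g = 5

namespace Ctx

variable {N : Subgroup G} {π : G →* A5} (C : Ctx N π)
include C

theorem conj_mem (g : G) {x : G} (hx : x ∈ N) : g * x * g⁻¹ ∈ N := by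
  rw [← C.ker, map_mul, map_mul, (C.ker x).2 hx]
  simp

theorem ord_three {g : G} (h1 : (π g) ^ 3 = 1) (h2 : π g ≠ 1) : orderOf g = 3 := by
  have h3 : orderOf (π g) = 3 := orderOf_eq_prime h1 h2
  have h4 : 3 ∣ orderOf g := h3 ▸ orderOf_map_dvd π g
  rcases C.ord g with h | h | h | h | h <;> rw [h] at h4 ⊢ <;> revert h4 <;> decide

theorem ord_five {g : G} (h1 : (π g) ^ 5 = 1) (h2 : π g ≠ 1) : orderOf g = 5 := by
  haveI : Fact (Nat.Prime 5) := ⟨by norm_num⟩
  have h3 : orderOf (π g) = 5 := orderOf_eq_prime h1 h2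
  have h4 : 5 ∣ orderOf g := h3 ▸ orderOf_map_dvd π g
  rcases C.ord g with h | h | h | h | h <;> rw [h] at h4 ⊢ <;> revert h4 <;> decide

/-- An element of order three fixes no nontrivial element of the kernel. -/
theorem fix_triv {b w : G} (hb : orderOf b = 3) (hw : w ∈ N) (hc : b * w = w * b) : w = 1 := by
  by_contra hne
  have hw2 : orderOf w = 2 := orderOf_eq_prime (by rw [pow_two]; exact C.sq w hw) hne
  have hcop : Nat.Coprime (orderOf b) (orderOf w) := by rw [hb, hw2]; decide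
  have h6 := Commute.orderOf_mul_eq_mul_orderOf_of_coprime (x := b) (y := w) hc hcop
  rw [hb, hw2] at h6
  rcases C.ord (b * w) with h | h | h | h | h <;> rw [h] at h6 <;> omega

/-- `1 + b + b² = 0` on the kernel. -/
theorem rel_three {b v : G} (hb : orderOf b = 3) (hv : v ∈ N) :
    v * (b * v * b⁻¹) * (b * (b * v * b⁻¹) * b⁻¹) = 1 := by
  have hb3 : b * b * b = 1 := by
    have := pow_orderOf_eq_one b
    rw [hb, pow_three] at this
    rw [mul_assoc]; exact this
  have h1 : b * v * b⁻¹ ∈ N := C.conj_mem b hv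
  have h2 : b * (b * v * b⁻¹) * b⁻¹ ∈ N := C.conj_mem b h1
  have h3 : b * (b * (b * v * b⁻¹) * b⁻¹) * b⁻¹ = v := by
    have e : b * (b * (b * v * b⁻¹) * b⁻¹) * b⁻¹ = (b * b * b) * v * (b * b * b)⁻¹ := by group
    rw [e, hb3]; simp
  apply C.fix_triv hb (mul_mem (mul_mem hv h1) h2)
  have e1 : b * (v * (b * v * b⁻¹) * (b * (b * v * b⁻¹) * b⁻¹)) =
      (b * v * b⁻¹) * (b * (b * v * b⁻¹) * b⁻¹) * (b * (b * (b * v * b⁻¹) * b⁻¹) * b⁻¹) * b := by
    group
  rw [e1, h3, C.comm _ (mul_mem h1 h2) _ hv]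
  simp only [mul_assoc]

/-- An involution over every involution inverting an element of order 3. -/
theorem exists_invol_lift {t c : A5} (ht : t * t = 1) (hc3 : c ^ 3 = 1) (hc1 : c ≠ 1)
    (htc : t * c * t = c⁻¹) {y : G} (hy : π y = t) : ∃ y' : G, π y' = t ∧ y' * y' = 1 := by
  obtain ⟨c', hc'⟩ := C.surj c
  have ho : orderOf c' = 3 := C.ord_three (by rw [hc']; exact hc3) (by rw [hc']; exact hc1)
  have hz : y * y ∈ N := by rw [← C.ker, map_mul, hy, ht]
  have hw : c' * (y * y) * c'⁻¹ ∈ N := C.conj_mem c' hz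
  refine ⟨y * (c' * (y * y) * c'⁻¹), ?_, ?_⟩
  · rw [map_mul, (C.ker _).2 hw, hy, mul_one]
  -- the conjugate of `c'` by `y`
  have hd : (y⁻¹ * c' * y) * c' ∈ N := by
    rw [← C.ker, map_mul, map_mul, map_mul, map_inv, hy, hc']
    have e : t⁻¹ = t := inv_eq_of_mul_eq_one_left ht
    rw [e, htc]
    simp
  set u := (y⁻¹ * c' * y) * c' with hu
  have hcinv : c'⁻¹ * (y * y) * c' ∈ N := by
    have := C.conj_mem c'⁻¹ hz
    simpa using this
  have e1 : y⁻¹ * (c' * (y * y) * c'⁻¹) * y = c'⁻¹ * (y * y) * c' := by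
    have h1 : y⁻¹ * (c' * (y * y) * c'⁻¹) * y =
        u * (c'⁻¹ * (y * y) * c') * u⁻¹ := by
      rw [hu]; group
    rw [h1, C.comm _ hd _ hcinv]
    group
  have hb3 : c' * c' * c' = 1 := by
    have := pow_orderOf_eq_one c'
    rw [ho, pow_three] at this
    rw [mul_assoc]; exact this
  have hcc : c' * c' = c'⁻¹ := eq_inv_of_mul_eq_one_left hb3
  have e2 : c' * (c' * (y * y) * c'⁻¹) * c'⁻¹ = c'⁻¹ * (y * y) * c' := by
    have h1 : c' * (c' * (y * y) * c'⁻¹) * c'⁻¹ = (c' * c') * (y * y) * (c' * c')⁻¹ := by group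
    rw [h1, hcc]; simp
  have hrel := C.rel_three ho hz
  rw [e2] at hrel
  have e3 : y * (c' * (y * y) * c'⁻¹) * (y * (c' * (y * y) * c'⁻¹)) =
      (y * y) * (y⁻¹ * (c' * (y * y) * c'⁻¹) * y) * (c' * (y * y) * c'⁻¹) := by group
  rw [e3, e1, mul_assoc (y * y), C.comm _ hcinv _ hw, ← mul_assoc]
  exact hrel

end Ctx

/-! ### The concrete elements of `A₅` -/

/-- The involution `(0 1)(2 3)`. -/
def t5 : A5 := ⟨Equiv.swap 0 1 * Equiv.swap 2 3, by rw [Equiv.Perm.mem_alternatingGroup]; decide⟩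

/-- The 3-cycle on `0, 1, 4`. -/
def c5 : A5 := ⟨Equiv.swap 0 1 * Equiv.swap 1 4, by rw [Equiv.Perm.mem_alternatingGroup]; decide⟩

/-- The rotation of `Fin 5`. -/
def b5 : A5 := ⟨finRotate 5, by rw [Equiv.Perm.mem_alternatingGroup]; decide⟩

theorem a5_facts : t5 * t5 = 1 ∧ c5 ^ 3 = 1 ∧ c5 ≠ 1 ∧ t5 * c5 * t5 = c5⁻¹ ∧ b5 ^ 5 = 1 ∧ b5 ≠ 1 ∧
    (t5 * b5⁻¹) ^ 3 = 1 ∧ t5 * b5⁻¹ ≠ 1 ∧ t5 ≠ 1 := by
  decide +kernel

open Cfsg.Agent.Lib.Compute.TC.A5 in
theorem card_P : Nat.card (PresentedGroup RR) = 60 := by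
  have h := index
  have e : Cfsg.Agent.Lib.Compute.ToddCoxeterPresented.HOf RR D.Hs = ⊥ := by
    simp [Cfsg.Agent.Lib.Compute.ToddCoxeterPresented.HOf, D]
  rw [e, Subgroup.index_bot] at h
  exact h

open Cfsg.Agent.Lib.Compute.TC.A5 in
/-- The section of the extension. -/
theorem Ctx.exists_section {N : Subgroup G} {π : G →* A5} (C : Ctx N π) :
    ∃ ι : A5 →* G, ∀ h, π (ι h) = h := by
  classical
  haveI : Fact (Nat.Prime 5) := ⟨by norm_num⟩
  haveI : Finite (PresentedGroup RR) := Nat.finite_of_card_ne_zero (by rw [card_P]; norm_num)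
  obtain ⟨h1, h2, h3, h4, h5, h6, h7, h8, h9⟩ := a5_facts
  obtain ⟨y, hy⟩ := C.surj t5
  obtain ⟨y', hy', hyy⟩ := C.exists_invol_lift h1 h2 h3 h4 hy
  obtain ⟨b, hb⟩ := C.surj b5
  have hb5 : b ^ 5 = 1 := by
    have ho : orderOf b = 5 := C.ord_five (by rw [hb]; exact h5) (by rw [hb]; exact h6)
    rw [← ho]; exact pow_orderOf_eq_one b
  have ha3 : (y' * b⁻¹) ^ 3 = 1 := by
    have ho : orderOf (y' * b⁻¹) = 3 :=
      C.ord_three (by rw [map_mul, map_inv, hy', hb]; exact h7)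
        (by rw [map_mul, map_inv, hy', hb]; exact h8)
    rw [← ho]; exact pow_orderOf_eq_one _
  let f : Fin 2 → G := ![y' * b⁻¹, b]
  have hf : ∀ r ∈ RR, FreeGroup.lift f r = 1 := by
    intro r hr
    rcases hr with rfl | rfl | rfl
    · simpa [f] using ha3
    · simpa [f] using hb5
    · have : (y' * b⁻¹ * b) ^ 2 = 1 := by
        rw [inv_mul_cancel_right, pow_two]; exact hyy
      simpa [f] using this
  let φ : PresentedGroup RR →* G := PresentedGroup.toGroup hf
  let Φ : PresentedGroup RR →* A5 := π.comp φ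
  have hcard : Nat.card (PresentedGroup RR) = 60 := card_P
  have hcA : Nat.card A5 = 60 := by
    rw [Nat.card_eq_fintype_card]; rfl
  -- surjectivity
  have hΦ0 : Φ (PresentedGroup.of (0 : Fin 2)) = t5 * b5⁻¹ := by
    simp only [Φ, φ, MonoidHom.comp_apply, PresentedGroup.toGroup.of]
    simp [f, hy', hb]
  have hΦ1 : Φ (PresentedGroup.of (1 : Fin 2)) = b5 := by
    simp only [Φ, φ, MonoidHom.comp_apply, PresentedGroup.toGroup.of]
    simp [f, hb]
  have hx3 : t5 * b5⁻¹ ∈ Φ.range := ⟨_, hΦ0⟩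
  have hx5 : b5 ∈ Φ.range := ⟨_, hΦ1⟩
  have hx2 : t5 ∈ Φ.range := by
    have := mul_mem hx3 hx5
    simpa using this
  haveI : Finite A5 := inferInstance
  have d3 : 3 ∣ Nat.card Φ.range := by
    have h := Subgroup.orderOf_dvd_natCard Φ.range hx3
    rwa [orderOf_eq_prime h7 h8] at h
  have d5 : 5 ∣ Nat.card Φ.range := by
    have h := Subgroup.orderOf_dvd_natCard Φ.range hx5
    rwa [orderOf_eq_prime h5 h6] at h
  have d2 : 2 ∣ Nat.card Φ.range := by
    have h := Subgroup.orderOf_dvd_natCard Φ.range hx2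
    rwa [orderOf_eq_prime (by rw [pow_two]; exact h1) h9] at h
  have dA : Nat.card Φ.range ∣ 60 := by
    rw [← hcA]; exact Subgroup.card_subgroup_dvd_card _
  have hindex : Nat.card Φ.range * Φ.range.index = 60 := by
    rw [Subgroup.card_mul_index, hcA]
  obtain ⟨k, hk⟩ : 30 ∣ Nat.card Φ.range := by
    have h23 : 6 ∣ Nat.card Φ.range :=
      Nat.Coprime.mul_dvd_of_dvd_of_dvd (by norm_num : Nat.Coprime 2 3) d2 d3
    exact Nat.Coprime.mul_dvd_of_dvd_of_dvd (by norm_num : Nat.Coprime 6 5) h23 d5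
  have htop : Φ.range = ⊤ := by
    have hle : Nat.card Φ.range ≤ 60 := Nat.le_of_dvd (by norm_num) dA
    have hk2 : k = 1 ∨ k = 2 := by
      have : k ≠ 0 := by
        rintro rfl
        have : Nat.card Φ.range ≠ 0 := Nat.card_pos.ne'
        omega
      omega
    rcases hk2 with rfl | rfl
    · -- index two is impossible
      have hi : Φ.range.index = 2 := by
        rw [hk] at hindex; omega
      haveI hn : Φ.range.Normal := Subgroup.normal_of_index_eq_two hi
      haveI : IsSimpleGroup A5 := alternatingGroup.isSimpleGroup (by simp)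
      rcases hn.eq_bot_or_eq_top with h | h
      · rw [h, Subgroup.card_bot] at hk; omega
      · rw [h, Subgroup.index_top] at hi; omega
    · apply Subgroup.eq_top_of_card_eq
      rw [hk, hcA]
  have hs : Function.Surjective Φ := MonoidHom.range_eq_top.1 htop
  have hbij : Function.Bijective Φ :=
    (Nat.bijective_iff_surjective_and_card Φ).2 ⟨hs, by rw [hcard, hcA]⟩
  refine ⟨φ.comp (MulEquiv.ofBijective Φ hbij).symm.toMonoidHom, fun h => ?_⟩
  have : Φ ((MulEquiv.ofBijective Φ hbij).symm h) = h :=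
    (MulEquiv.ofBijective Φ hbij).apply_symm_apply h
  exact this

end Cfsg.Agent.Lib.CritA6
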