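import Mathlib
import Cfsg.Agent.Lib.CritA6.Core

/-!
# Criticality forces the kernel to be irreducible
-/

set_option autoImplicit false

namespace Cfsg.Agent.Lib.CritA6

variable {G : Type*} [Group G]

namespace Ctx

variable {N : Subgroup G} {π : G →* A5} (C : Ctx N π)
include C

theorem exists_moved (ι : A5 →* G) (hι : ∀ h, π (ι h) = h) {M : Subgroup G} [hM : M.Normal]
    (hMN : M ≤ N) (hne : M ≠ N) :
    ∃ v ∈ N, (ι t5 * v * (ι t5)⁻¹) * v ∉ M := by
  obtain ⟨h1, h2, h3, h4, h5, h6, h7, h8, h9⟩ := a5_facts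
  by_contra hcon
  push Not at hcon
  obtain ⟨v, hvN, hvM⟩ : ∃ v ∈ N, v ∉ M := by
    by_contra hh
    push Not at hh
    exact hne (le_antisymm hMN hh)
  set y := ι t5 with hy
  set c := ι c5 with hc
  have ho : orderOf c = 3 := C.ord_three (by rw [hc, hι]; exact h2) (by rw [hc, hι]; exact h3)
  have hc3 : c * c * c = 1 := by
    have := pow_orderOf_eq_one c
    rw [ho, pow_three] at this
    rw [mul_assoc]; exact this
  have hcc : c * c = c⁻¹ := eq_inv_of_mul_eq_one_left hc3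
  have hyi : y⁻¹ = y := by
    apply inv_eq_of_mul_eq_one_left
    rw [hy, ← map_mul, h1, map_one]
  have hyc : y * c * y⁻¹ = c⁻¹ := by
    rw [hyi, hy, hc, ← map_mul, ← map_mul, h4, map_inv]
  set x := c * v * c⁻¹ with hx
  set x' := c⁻¹ * v * c with hx'
  have hxN : x ∈ N := C.conj_mem c hvN
  have hx'N : x' ∈ N := by
    have := C.conj_mem c⁻¹ hvN
    simpa using this
  have e0 : c * x * c⁻¹ = x' := by
    have h : c * x * c⁻¹ = (c * c) * v * (c * c)⁻¹ := by rw [hx]; group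
    rw [h, hcc]; simp [hx']
  have hrel := C.rel_three ho hvN
  rw [← hx, e0] at hrel
  have h1' := hcon v hvN
  have h2' := hcon x hxN
  set a := c⁻¹ * (y * v * y⁻¹) * c with ha
  have haN : a ∈ N := by
    have := C.conj_mem c⁻¹ (C.conj_mem y hvN)
    simpa [ha] using this
  have e1 : y * x * y⁻¹ = a := by
    have h : y * x * y⁻¹ = (y * c * y⁻¹) * (y * v * y⁻¹) * (y * c * y⁻¹)⁻¹ := by rw [hx]; group
    rw [h, hyc, ha]; simp
  rw [e1] at h2'
  have h3' : a * x' ∈ M := by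
    have := hM.conj_mem _ h1' c⁻¹
    have e : c⁻¹ * ((y * v * y⁻¹) * v) * c⁻¹⁻¹ = a * x' := by
      rw [ha, hx']; group
    rwa [e] at this
  have h4' : x * x' ∈ M := by
    have := mul_mem h2' h3'
    have e : a * x * (a * x') = x * x' := by
      calc a * x * (a * x') = a * (x * a) * x' := by group
        _ = a * (a * x) * x' := by rw [C.comm x hxN a haN]
        _ = (a * a) * x * x' := by group
        _ = x * x' := by rw [C.sq a haN, one_mul]
    rwa [e] at this
  apply hvM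
  have e2 : x * x' = v := by
    have hinv : v⁻¹ = v := inv_eq_of_mul_eq_one_left (C.sq v hvN)
    have : x * x' = v⁻¹ := by
      apply eq_inv_of_mul_eq_one_right
      rw [← mul_assoc]; exact hrel
    rw [this, hinv]
  rwa [e2] at h4'

theorem crit_bot (ι : A5 →* G) (hι : ∀ h, π (ι h) = h)
    (hcrit : ∀ (H : Subgroup G) (N' : Subgroup ↥H) [N'.Normal], (H ≠ ⊤ ∨ N' ≠ ⊥) →
      Set.range (orderOf : (↥H ⧸ N') → ℕ) ≠ ({1, 2, 3, 4, 5} : Set ℕ))
    {M : Subgroup G} [hM : M.Normal] (hMN : M ≤ N) (hne : M ≠ N) : M = ⊥ := by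
  classical
  haveI : Fact (Nat.Prime 5) := ⟨by norm_num⟩
  obtain ⟨h1, h2, h3, h4, h5, h6, h7, h8, h9⟩ := a5_facts
  by_contra hbot
  obtain ⟨v, hvN, hv⟩ := C.exists_moved ι hι hMN hne
  have hN'ne : M.subgroupOf ⊤ ≠ ⊥ := by
    intro h
    apply hbot
    rw [eq_bot_iff]
    intro m hm
    have h0 : (⟨m, trivial⟩ : (⊤ : Subgroup G)) ∈ M.subgroupOf ⊤ := hm
    rw [h, Subgroup.mem_bot] at h0
    rw [Subgroup.mem_bot]
    exact congrArg Subtype.val h0
  apply hcrit ⊤ (M.subgroupOf ⊤) (Or.inr hN'ne)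
  let ρ : G →* ((⊤ : Subgroup G) ⧸ M.subgroupOf ⊤) :=
    (QuotientGroup.mk' (M.subgroupOf ⊤)).comp (Subgroup.topEquiv.symm.toMonoidHom)
  have hρ : ∀ g, ρ g = 1 ↔ g ∈ M := by
    intro g
    change ((⟨g, trivial⟩ : (⊤ : Subgroup G)) : (⊤ : Subgroup G) ⧸ M.subgroupOf ⊤) = 1 ↔ _
    rw [QuotientGroup.eq_one_iff]
    exact Iff.rfl
  have hs : Function.Surjective ρ := by
    intro q
    obtain ⟨⟨g, hg⟩, rfl⟩ := QuotientGroup.mk'_surjective _ q
    exact ⟨g, rfl⟩
  have hnotM : ∀ h : A5, h ≠ 1 → ι h ∉ M := by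
    intro h hh hm
    apply hh
    have := (C.ker _).2 (hMN hm)
    rwa [hι] at this
  ext k
  constructor
  · rintro ⟨q, rfl⟩
    obtain ⟨g, rfl⟩ := hs q
    have d := orderOf_map_dvd ρ g
    have hpos : 0 < orderOf g ∧ orderOf g ≤ 5 := by
      rcases C.ord g with h | h | h | h | h <;> rw [h] <;> norm_num
    have h0 := Nat.pos_of_dvd_of_pos d hpos.1
    have h00 := (Nat.le_of_dvd hpos.1 d).trans hpos.2
    simp only [Set.mem_insert_iff, Set.mem_singleton_iff]
    omega
  · intro hk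
    simp only [Set.mem_insert_iff, Set.mem_singleton_iff] at hk
    rcases hk with rfl | rfl | rfl | rfl | rfl
    · exact ⟨1, orderOf_one⟩
    · refine ⟨ρ (ι t5), orderOf_eq_prime ?_ ?_⟩
      · rw [← map_pow, ← map_pow, pow_two, h1, map_one, map_one]
      · rw [Ne, hρ]; exact hnotM _ h9
    · refine ⟨ρ (ι c5), orderOf_eq_prime ?_ ?_⟩
      · rw [← map_pow, ← map_pow, h2, map_one, map_one]
      · rw [Ne, hρ]; exact hnotM _ h3
    · -- order four
      set y := ι t5 with hy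
      have hyy : y * y = 1 := by rw [hy, ← map_mul, h1, map_one]
      have hyi : y⁻¹ = y := inv_eq_of_mul_eq_one_left hyy
      have e : (y * v) * (y * v) = (y * v * y⁻¹) * v := by
        rw [hyi]
        group
      have hsq : (y * v) * (y * v) ∈ N := by
        rw [e]
        exact mul_mem (C.conj_mem y hvN) hvN
      refine ⟨ρ (y * v), ?_⟩
      have hA : ¬ (ρ (y * v)) ^ 2 ^ 1 = 1 := by
        rw [pow_one, pow_two, ← map_mul, hρ, e]
        exact hv
      have hB : (ρ (y * v)) ^ 2 ^ (1 + 1) = 1 := by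
        have e4 : (ρ (y * v)) ^ 2 ^ (1 + 1) = ρ (((y * v) * (y * v)) * ((y * v) * (y * v))) := by
          rw [← map_pow]
          congr 1
          rw [show (2 : ℕ) ^ (1 + 1) = 2 + 2 from rfl, pow_add, pow_two]
        rw [e4, C.sq _ hsq, map_one]
      have := orderOf_eq_prime_pow (p := 2) (n := 1) hA hB
      simpa using this
    · refine ⟨ρ (ι b5), orderOf_eq_prime ?_ ?_⟩
      · rw [← map_pow, ← map_pow, h5, map_one, map_one]
      · rw [Ne, hρ]; exact hnotM _ h6

end Ctx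

end Cfsg.Agent.Lib.CritA6
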