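import Mathlib
import Cfsg.Agent.Lib.CritA6.Crit
import Cfsg.Agent.Lib.Compute.GF4
import Cfsg.Agent.Lib.Compute.SmallField
import Cfsg.Agent.Lib.PSL2.Basic
import Cfsg.Agent.Lib.Linalg.AffineSL24

/-!
# The kernel is the natural module of `SL₂(F₄)` and the group is the affine group
-/

set_option autoImplicit false

namespace Cfsg.Agent.Lib.CritA6

open Cfsg.Agent.Lib.Compute.GF4 Matrix
open Cfsg.Agent.Lib.Linalg.AffineSL24 (aff)

/-- `SL₂(F₄)`. -/
abbrev SL2 := Matrix.SpecialLinearGroup (Fin 2) F4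

/-- The natural module. -/
abbrev V2 := Fin 2 → F4

/-- The first basis vector. -/
def e1 : V2 := ![1, 0]

theorem exists_equiv_sl2 : Nonempty (SL2 ≃* A5) := by
  obtain ⟨f⟩ := Cfsg.Agent.Lib.Compute.SmallField.psl2_card4 (F := F4) F4.card_eq
  exact ⟨(Cfsg.Agent.Lib.PSL2.Basic.pslEquivSL F4.two_eq_zero).symm.trans f⟩

/-- An element of `SL₂(F₄)` from its entries. -/
def mk2 (p q r s : F4) (h : p * s - q * r = 1) : SL2 :=
  ⟨!![p, q; r, s], by rw [Matrix.det_fin_two_of]; exact h⟩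

@[simp] theorem mk2_coe (p q r s : F4) (h : p * s - q * r = 1) :
    ((mk2 p q r s h : SL2) : Matrix (Fin 2) (Fin 2) F4) = !![p, q; r, s] := rfl

theorem mulVec_apply0 (A : SL2) (w : V2) :
    ((A : Matrix (Fin 2) (Fin 2) F4) *ᵥ w) 0 = A.1 0 0 * w 0 + A.1 0 1 * w 1 := by
  simp [Matrix.mulVec, dotProduct, Fin.sum_univ_two]

theorem mulVec_apply1 (A : SL2) (w : V2) :
    ((A : Matrix (Fin 2) (Fin 2) F4) *ᵥ w) 1 = A.1 1 0 * w 0 + A.1 1 1 * w 1 := by
  simp [Matrix.mulVec, dotProduct, Fin.sum_univ_two]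

theorem v2_ext {a b : V2} (h0 : a 0 = b 0) (h1 : a 1 = b 1) : a = b := by
  funext i; fin_cases i
  · exact h0
  · exact h1

theorem det_eq (A : SL2) : A.1 0 0 * A.1 1 1 - A.1 0 1 * A.1 1 0 = 1 := by
  have := A.2
  rwa [Matrix.det_fin_two] at this

theorem dec_move : ∀ x y : F4, ¬ (x = 0 ∧ y = 0) →
    ∃ p q r s : F4, p * s - q * r = 1 ∧ p = x ∧ r = y := by decide

theorem exists_move (w : V2) (hw : w ≠ 0) : ∃ A : SL2, (A : Matrix (Fin 2) (Fin 2) F4) *ᵥ e1 = w := by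
  have h : ¬ (w 0 = 0 ∧ w 1 = 0) := fun h => hw (v2_ext h.1 h.2)
  obtain ⟨p, q, r, s, hd, h1, h2⟩ := dec_move _ _ h
  refine ⟨mk2 p q r s hd, v2_ext ?_ ?_⟩
  · rw [mulVec_apply0]; simp [mk2, e1, h1]
  · rw [mulVec_apply1]; simp [mk2, e1, h2]

/-- The unipotent elements. -/
def unip (b : F4) : SL2 := mk2 1 b 0 1 (by revert b; decide)

theorem unip_zero : unip 0 = 1 := by
  apply Subtype.ext
  ext i j
  fin_cases i <;> fin_cases j <;> rfl

theorem unip_add (b c : F4) : unip (b + c) = unip b * unip c := by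
  apply Subtype.ext
  ext i j
  simp only [unip, mk2_coe, Matrix.SpecialLinearGroup.coe_mul]
  fin_cases i <;> fin_cases j <;> simp [Matrix.mul_apply, Fin.sum_univ_two, add_comm]

theorem stab_unip (A : SL2) (h : (A : Matrix (Fin 2) (Fin 2) F4) *ᵥ e1 = e1) :
    ∃ b, A = unip b := by
  have h0 := congrFun h 0
  have h1 := congrFun h 1
  rw [mulVec_apply0] at h0
  rw [mulVec_apply1] at h1
  have e10 : e1 0 = 1 := rfl
  have e11 : e1 1 = 0 := rfl
  rw [e10, e11, mul_one, mul_zero, add_zero] at h0 h1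
  have hd := det_eq A
  rw [h0, h1, one_mul, mul_zero, sub_zero] at hd
  refine ⟨A.1 0 1, ?_⟩
  apply Subtype.ext
  ext i j
  fin_cases i <;> fin_cases j
  · exact h0
  · rfl
  · exact h1
  · exact hd

/-- All elements of `F₄`. -/
def F4.all : List F4 := [F4.o, F4.i, F4.w, F4.v]

/-- The condition met by the matrix sending `(a,b) ↦ (c,d) ↦ (a+c,b+d)`, of order dividing `3`. -/
def TriP (a b c d p q r s : F4) : Prop :=
  p * s - q * r = 1 ∧ p * a + q * b = c ∧ r * a + s * b = d ∧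
      p * c + q * d = a + c ∧ r * c + s * d = b + d ∧
      (p * p + q * r) * p + (p * q + q * s) * r = 1 ∧
      (p * p + q * r) * q + (p * q + q * s) * s = 0 ∧
      (r * p + s * r) * p + (r * q + s * s) * r = 0 ∧
      (r * p + s * r) * q + (r * q + s * s) * s = 1

instance (a b c d p q r s : F4) : Decidable (TriP a b c d p q r s) := by
  unfold TriP; infer_instance

/-- Searching for the matrix. -/
def triSearch (a b c d : F4) : Bool :=
  (a == 0 && b == 0) || (c == 0 && d == 0) || (a == c && b == d) ||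
  F4.all.any fun p => F4.all.any fun q => F4.all.any fun r => F4.all.any fun s =>
    decide (TriP a b c d p q r s)

theorem triSearch_all : ∀ a b c d : F4, triSearch a b c d = true := by decide +kernel

theorem dec_tri (a b c d : F4) (h1 : ¬ (a = 0 ∧ b = 0)) (h2 : ¬ (c = 0 ∧ d = 0))
    (h3 : ¬ (a = c ∧ b = d)) : ∃ p q r s : F4, TriP a b c d p q r s := by
  have h := triSearch_all a b c d
  simp only [triSearch, Bool.or_eq_true, Bool.and_eq_true, beq_iff_eq, List.any_eq_true,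
    decide_eq_true_eq] at h
  rcases h with ((h | h) | h) | ⟨p, -, q, -, r, -, s, -, h⟩
  · exact absurd h h1
  · exact absurd h h2
  · exact absurd h h3
  · exact ⟨p, q, r, s, h⟩

theorem exists_tri (w₁ w₂ : V2) (h1 : w₁ ≠ 0) (h2 : w₂ ≠ 0) (h12 : w₁ ≠ w₂) :
    ∃ A : SL2, A * A * A = 1 ∧ A ≠ 1 ∧ (A : Matrix (Fin 2) (Fin 2) F4) *ᵥ w₁ = w₂ ∧
      (A : Matrix (Fin 2) (Fin 2) F4) *ᵥ w₂ = w₁ + w₂ := by
  have h1' : ¬ (w₁ 0 = 0 ∧ w₁ 1 = 0) := fun h => h1 (v2_ext h.1 h.2)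
  have h2' : ¬ (w₂ 0 = 0 ∧ w₂ 1 = 0) := fun h => h2 (v2_ext h.1 h.2)
  have h12' : ¬ (w₁ 0 = w₂ 0 ∧ w₁ 1 = w₂ 1) := fun h => h12 (v2_ext h.1 h.2)
  obtain ⟨p, q, r, s, hd, a1, a2, a3, a4, c1, c2, c3, c4⟩ := dec_tri _ _ _ _ h1' h2' h12'
  have hw1 : ((mk2 p q r s hd : SL2) : Matrix (Fin 2) (Fin 2) F4) *ᵥ w₁ = w₂ := by
    apply v2_ext
    · rw [mulVec_apply0]; exact a1
    · rw [mulVec_apply1]; exact a2
  refine ⟨mk2 p q r s hd, ?_, ?_, hw1, ?_⟩
  · apply Subtype.ext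
    ext i j
    simp only [mk2_coe, Matrix.SpecialLinearGroup.coe_mul, Matrix.SpecialLinearGroup.coe_one]
    fin_cases i <;> fin_cases j <;>
      simp [Matrix.mul_apply, Fin.sum_univ_two] <;> assumption
  · intro h
    rw [h] at hw1
    apply h12
    simpa using hw1
  · apply v2_ext
    · rw [mulVec_apply0]; exact a3
    · rw [mulVec_apply1]; exact a4

/-- A hyperplane-free fixed point for an involution. -/
theorem fix_step {G : Type*} [Group G] {N : Subgroup G} {π : G →* A5} (C : Ctx N π) {τ : G}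
    (hτ : τ * τ = 1) {v : G} (hv : v ∈ N) (hv1 : v ≠ 1) :
    ∃ v' ∈ N, v' ≠ 1 ∧ τ * v' * τ⁻¹ = v' ∧
      ∀ σ : G, σ * τ = τ * σ → σ * v * σ⁻¹ = v → σ * v' * σ⁻¹ = v' := by
  have hτi : τ⁻¹ = τ := inv_eq_of_mul_eq_one_left hτ
  have hw : τ * v * τ⁻¹ ∈ N := C.conj_mem τ hv
  by_cases hx : v * (τ * v * τ⁻¹) = 1
  · refine ⟨v, hv, hv1, ?_, fun σ _ h => h⟩
    have : τ * v * τ⁻¹ = v⁻¹ := eq_inv_of_mul_eq_one_right hx
    rw [this, inv_eq_of_mul_eq_one_left (C.sq v hv)]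
  · refine ⟨v * (τ * v * τ⁻¹), mul_mem hv hw, hx, ?_, ?_⟩
    · have e : τ * (v * (τ * v * τ⁻¹)) * τ⁻¹ = (τ * v * τ⁻¹) * ((τ * τ) * v * (τ * τ)⁻¹) := by group
      rw [e, hτ, C.comm _ hw]
      · simp
      · simpa using hv
    · intro σ hc hf
      have e : σ * (v * (τ * v * τ⁻¹)) * σ⁻¹ =
          (σ * v * σ⁻¹) * ((σ * τ) * v * (σ * τ)⁻¹) := by group
      have e' : (σ * τ) * v * (σ * τ)⁻¹ = τ * (σ * v * σ⁻¹) * τ⁻¹ := by
        rw [hc]; group
      rw [e, e', hf]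

section Psi

variable {G : Type*} [Group G] {N : Subgroup G} {π : G →* A5} (C : Ctx N π)
  (j : SL2 →* G) (p : G →* SL2) (hp : ∀ A, p (j A) = A) (hker : ∀ g, p g = 1 ↔ g ∈ N)

include C in
theorem exists_fixed (hN : N ≠ ⊥) :
    ∃ u ∈ N, u ≠ 1 ∧ ∀ b : F4, j (unip b) * u * (j (unip b))⁻¹ = u := by
  obtain ⟨v, hvN, hv1⟩ : ∃ v ∈ N, v ≠ 1 := by
    by_contra h
    push Not at h
    exact hN (eq_bot_iff.2 fun x hx => by rw [Subgroup.mem_bot]; exact h x hx)
  have hinv : ∀ b : F4, j (unip b) * j (unip b) = 1 := by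
    intro b
    rw [← map_mul, ← unip_add]
    have : b + b = 0 := by revert b; decide
    rw [this, unip_zero, map_one]
  have hcomm : ∀ b c : F4, j (unip b) * j (unip c) = j (unip c) * j (unip b) := by
    intro b c
    rw [← map_mul, ← map_mul, ← unip_add, ← unip_add, add_comm]
  obtain ⟨v₁, hv₁N, hv₁1, hf1, -⟩ := fix_step C (hinv 1) hvN hv1
  obtain ⟨v₂, hv₂N, hv₂1, hf2, hrest⟩ := fix_step C (hinv F4.w) hv₁N hv₁1
  have hf1' := hrest _ (hcomm 1 F4.w) hf1
  refine ⟨v₂, hv₂N, hv₂1, ?_⟩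
  intro b
  cases b with
  | o =>
    have : unip F4.o = 1 := unip_zero
    rw [this, map_one]; simp
  | i => exact hf1'
  | w => exact hf2
  | v =>
    have : unip F4.v = unip 1 * unip F4.w := by
      rw [← unip_add]; rfl
    rw [this, map_mul]
    have e : j (unip 1) * j (unip F4.w) * v₂ * (j (unip 1) * j (unip F4.w))⁻¹ =
        j (unip 1) * (j (unip F4.w) * v₂ * (j (unip F4.w))⁻¹) * (j (unip 1))⁻¹ := by group
    rw [e, hf2, hf1']

/-- The equivariant map. -/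
noncomputable def psi (u : G) (w : V2) : G := by
  classical
  exact if h : w = 0 then 1 else
    j (Classical.choose (exists_move w h)) * u * (j (Classical.choose (exists_move w h)))⁻¹

theorem psi_zero (u : G) : psi j u 0 = 1 := by
  simp [psi]

theorem ne_zero_of_move (A : SL2) : (A : Matrix (Fin 2) (Fin 2) F4) *ᵥ e1 ≠ 0 := by
  intro h
  have h0 := congrFun h 0
  have h1 := congrFun h 1
  rw [mulVec_apply0] at h0
  rw [mulVec_apply1] at h1
  have e10 : e1 0 = 1 := rfl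
  have e11 : e1 1 = 0 := rfl
  rw [e10, e11, mul_one, mul_zero, add_zero] at h0 h1
  have hd := det_eq A
  have h0' : A.1 0 0 = 0 := h0
  have h1' : A.1 1 0 = 0 := h1
  rw [h0', h1', zero_mul, mul_zero, sub_zero] at hd
  exact zero_ne_one hd

variable {u : G} (hfix : ∀ b : F4, j (unip b) * u * (j (unip b))⁻¹ = u)

include hfix in
theorem psi_eq (A : SL2) : psi j u ((A : Matrix (Fin 2) (Fin 2) F4) *ᵥ e1) = j A * u * (j A)⁻¹ := by
  classical
  have hne := ne_zero_of_move A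
  have hb := Classical.choose_spec (exists_move _ hne)
  set B := Classical.choose (exists_move _ hne) with hB
  have hdef : psi j u ((A : Matrix (Fin 2) (Fin 2) F4) *ᵥ e1) = j B * u * (j B)⁻¹ := by
    simp only [psi]
    rw [dif_neg hne]
  rw [hdef]
  have hs : ((B⁻¹ * A : SL2) : Matrix (Fin 2) (Fin 2) F4) *ᵥ e1 = e1 := by
    rw [Matrix.SpecialLinearGroup.coe_mul, ← Matrix.mulVec_mulVec, ← hb, Matrix.mulVec_mulVec,
      ← Matrix.SpecialLinearGroup.coe_mul, inv_mul_cancel]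
    simp
  obtain ⟨b, hb'⟩ := stab_unip _ hs
  have hA : A = B * unip b := by rw [← hb']; group
  rw [hA, map_mul]
  have e : j B * j (unip b) * u * (j B * j (unip b))⁻¹ =
      j B * (j (unip b) * u * (j (unip b))⁻¹) * (j B)⁻¹ := by group
  rw [e, hfix]

include hfix in
theorem psi_equiv (A : SL2) (w : V2) :
    j A * psi j u w * (j A)⁻¹ = psi j u ((A : Matrix (Fin 2) (Fin 2) F4) *ᵥ w) := by
  by_cases hw : w = 0
  · subst hw
    rw [Matrix.mulVec_zero, psi_zero]; simp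
  · obtain ⟨B, rfl⟩ := exists_move w hw
    rw [psi_eq j hfix, Matrix.mulVec_mulVec, ← Matrix.SpecialLinearGroup.coe_mul, psi_eq j hfix,
      map_mul]
    group

include C hfix in
theorem psi_mem (hu : u ∈ N) (w : V2) : psi j u w ∈ N := by
  by_cases hw : w = 0
  · subst hw; rw [psi_zero]; exact one_mem _
  · obtain ⟨B, rfl⟩ := exists_move w hw
    rw [psi_eq j hfix]
    exact C.conj_mem _ hu

include hfix in
theorem psi_ne (hu1 : u ≠ 1) {w : V2} (hw : w ≠ 0) : psi j u w ≠ 1 := by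
  obtain ⟨B, rfl⟩ := exists_move w hw
  rw [psi_eq j hfix]
  intro h
  apply hu1
  have : u = (j B)⁻¹ * (j B * u * (j B)⁻¹) * j B := by group
  rw [this, h]; simp

include C hp hfix in
theorem psi_add (hu : u ∈ N) (w₁ w₂ : V2) : psi j u (w₁ + w₂) = psi j u w₁ * psi j u w₂ := by
  have hm := psi_mem C j hfix hu
  by_cases h1 : w₁ = 0
  · subst h1; rw [zero_add, psi_zero, one_mul]
  by_cases h2 : w₂ = 0
  · subst h2; rw [add_zero, psi_zero, mul_one]
  by_cases h12 : w₁ = w₂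
  · subst h12
    have : w₁ + w₁ = 0 := by
      funext i
      have : ∀ x : F4, x + x = 0 := by decide
      exact this _
    rw [this, psi_zero, C.sq _ (hm w₁)]
  obtain ⟨A, hA3, hA1, ha, hb⟩ := exists_tri w₁ w₂ h1 h2 h12
  have hj3 : (j A) ^ 3 = 1 := by
    rw [pow_three, ← mul_assoc, ← map_mul, ← map_mul, hA3, map_one]
  have hj1 : j A ≠ 1 := by
    intro h
    apply hA1
    have := hp A
    rw [h, map_one] at this
    exact this.symm
  have ho : orderOf (j A) = 3 := orderOf_eq_prime hj3 hj1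
  have hrel := C.rel_three ho (hm w₁)
  rw [psi_equiv j hfix, psi_equiv j hfix, ha, hb] at hrel
  have e1 : psi j u (w₁ + w₂) = (psi j u w₁ * psi j u w₂)⁻¹ := eq_inv_of_mul_eq_one_right hrel
  have e2 : (psi j u w₁ * psi j u w₂)⁻¹ = psi j u w₁ * psi j u w₂ :=
    inv_eq_of_mul_eq_one_left (C.sq _ (mul_mem (hm w₁) (hm w₂)))
  rw [e1, e2]

end Psi

end Cfsg.Agent.Lib.CritA6
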