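import Mathlib
import Cfsg.Agent.Lib.CritA6.Module

/-!
# The critical extension of the elementary abelian group is the affine group `F₄² ⋊ SL₂(F₄)`
-/

set_option autoImplicit false

namespace Cfsg.Agent.Lib.CritA6

open Cfsg.Agent.Lib.Compute.GF4 Matrix
open Cfsg.Agent.Lib.Linalg.AffineSL24 (aff mem_aff exists_aff)

section Blocks

/-- The upper left block, as an element of `SL₂(F₄)`. -/
def blk (M : aff F4) : SL2 :=
  ⟨!![M.1.1 0 0, M.1.1 0 1; M.1.1 1 0, M.1.1 1 1], by
    have h := M.1.2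
    obtain ⟨h0, h1, h2⟩ := mem_aff.1 M.2
    rw [Matrix.det_fin_three, h0, h1, h2] at h
    rw [Matrix.det_fin_two_of]
    simpa using h⟩

/-- The last column. -/
def col (M : aff F4) : V2 := ![M.1.1 0 2, M.1.1 1 2]

theorem blk_mul (M M' : aff F4) : blk (M * M') = blk M * blk M' := by
  obtain ⟨h0, h1, h2⟩ := mem_aff.1 M'.2
  apply Subtype.ext
  ext a b
  simp only [Matrix.SpecialLinearGroup.coe_mul]
  rw [Matrix.mul_apply, Fin.sum_univ_two]
  fin_cases a <;> fin_cases b <;> simp [blk, Matrix.mul_apply, Fin.sum_univ_three, h0, h1]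

theorem col_mul (M M' : aff F4) :
    col (M * M') = col M + ((blk M : SL2) : Matrix (Fin 2) (Fin 2) F4) *ᵥ col M' := by
  obtain ⟨h0, h1, h2⟩ := mem_aff.1 M'.2
  apply v2_ext
  · rw [Pi.add_apply, mulVec_apply0]
    simp [blk, col, Matrix.mul_apply, Fin.sum_univ_three, h2]
    ring
  · rw [Pi.add_apply, mulVec_apply1]
    simp [blk, col, Matrix.mul_apply, Fin.sum_univ_three, h2]
    ring

end Blocks

section Psi

variable {G : Type*} [Group G] {N : Subgroup G} {π : G →* A5} (C : Ctx N π)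
  (j : SL2 →* G) (p : G →* SL2) (hp : ∀ A, p (j A) = A) (hker : ∀ g, p g = 1 ↔ g ∈ N)
  {u : G} (hfix : ∀ b : F4, j (unip b) * u * (j (unip b))⁻¹ = u) (hu : u ∈ N)

/-- The image of the equivariant map. -/
def psiRange : Subgroup G where
  carrier := Set.range (psi j u)
  mul_mem' := by
    rintro _ _ ⟨a, rfl⟩ ⟨b, rfl⟩
    exact ⟨a + b, psi_add C j p hp hfix hu a b⟩
  one_mem' := ⟨0, psi_zero j u⟩
  inv_mem' := by
    rintro _ ⟨a, rfl⟩
    exact ⟨a, (inv_eq_of_mul_eq_one_left (C.sq _ (psi_mem C j hfix hu a))).symm⟩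

theorem mem_psiRange {x : G} :
    x ∈ psiRange C j p hp hfix hu ↔ ∃ w, psi j u w = x := Iff.rfl

theorem psiRange_le : psiRange C j p hp hfix hu ≤ N := by
  rintro _ ⟨a, rfl⟩
  exact psi_mem C j hfix hu a

include hker in
theorem psiRange_normal : (psiRange C j p hp hfix hu).Normal where
  conj_mem := by
    rintro _ ⟨w, rfl⟩ g
    have hm : g * (j (p g))⁻¹ ∈ N := (hker _).1 (by simp [hp])
    have e : g * psi j u w * g⁻¹ = (g * (j (p g))⁻¹) * (j (p g) * psi j u w * (j (p g))⁻¹) *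
        (g * (j (p g))⁻¹)⁻¹ := by group
    rw [e, psi_equiv j hfix, C.comm _ hm _ (psi_mem C j hfix hu _)]
    exact ⟨((p g : SL2) : Matrix (Fin 2) (Fin 2) F4) *ᵥ w, by group⟩

/-- The map from the affine group. -/
noncomputable def xi : aff F4 →* G :=
  MonoidHom.mk' (fun M => psi j u (col M) * j (blk M)) (fun M M' => by
    rw [col_mul, psi_add C j p hp hfix hu, blk_mul, map_mul, ← psi_equiv j hfix]
    group)

theorem xi_apply (M : aff F4) : xi C j p hp hfix hu M = psi j u (col M) * j (blk M) := rfl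

include hker in
theorem xi_injective (hu1 : u ≠ 1) : Function.Injective (xi C j p hp hfix hu) := by
  rw [injective_iff_map_eq_one]
  intro M hM
  rw [xi_apply] at hM
  have h1 : blk M = 1 := by
    have := congrArg p hM
    rw [map_mul, (hker _).2 (psi_mem C j hfix hu _), one_mul, hp, map_one] at this
    exact this
  rw [h1, map_one, mul_one] at hM
  have h2 : col M = 0 := by
    by_contra hne
    exact psi_ne j hfix hu1 hne hM
  obtain ⟨h20, h21, h22⟩ := mem_aff.1 M.2
  have e00 := congrArg (fun A : SL2 => A.1 0 0) h1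
  have e01 := congrArg (fun A : SL2 => A.1 0 1) h1
  have e10 := congrArg (fun A : SL2 => A.1 1 0) h1
  have e11 := congrArg (fun A : SL2 => A.1 1 1) h1
  have e02 := congrFun h2 0
  have e12 := congrFun h2 1
  simp [blk] at e00 e01 e10 e11
  simp [col] at e02 e12
  apply Subtype.ext
  apply Subtype.ext
  ext a b
  fin_cases a <;> fin_cases b <;> simp [*]

theorem xi_surjective (hker : ∀ g, p g = 1 ↔ g ∈ N) (hs : ∀ g ∈ N, ∃ w, psi j u w = g) :
    Function.Surjective (xi C j p hp hfix hu) := by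
  intro g
  have hm : g * (j (p g))⁻¹ ∈ N := (hker _).1 (by simp [hp])
  obtain ⟨w, hw⟩ := hs _ hm
  have hd := det_eq (p g)
  obtain ⟨x, hx⟩ := exists_aff (F := F4)
    !![(p g).1 0 0, (p g).1 0 1, w 0; (p g).1 1 0, (p g).1 1 1, w 1; 0, 0, 1]
    (by
      rw [Matrix.det_fin_three]
      simpa using hd)
    (by simp) (by simp) (by simp)
  refine ⟨x, ?_⟩
  have h1 : blk x = p g := by
    apply Subtype.ext
    ext a b
    fin_cases a <;> fin_cases b <;> simp [blk, hx]
  have h2 : col x = w := by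
    apply v2_ext <;> simp [col, hx]
  rw [xi_apply, h1, h2, hw]
  group

end Psi

section Main

variable {G : Type*} [Group G]

theorem a5_sq_of_four : ∀ σ : Equiv.Perm (Fin 5), Equiv.Perm.sign σ = 1 → σ ^ 4 = 1 → σ ^ 2 = 1 := by
  decide +kernel

theorem a5_sq_of_four' (x : A5) (h : x ^ 4 = 1) : x ^ 2 = 1 := by
  apply Subtype.ext
  have h' : (x : Equiv.Perm (Fin 5)) ^ 4 = 1 := by
    have := congrArg Subtype.val h
    simpa using this
  have := a5_sq_of_four x.1 (Equiv.Perm.mem_alternatingGroup.1 x.2) h'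
  simpa using this

/-- The main lemma. -/
theorem equiv_aff_of_crit [Finite G]
    (hω : Set.range (orderOf : G → ℕ) = ({1, 2, 3, 4, 5} : Set ℕ))
    (hcrit : ∀ (H : Subgroup G) (N' : Subgroup ↥H) [N'.Normal], (H ≠ ⊤ ∨ N' ≠ ⊥) →
      Set.range (orderOf : (↥H ⧸ N') → ℕ) ≠ ({1, 2, 3, 4, 5} : Set ℕ))
    (N : Subgroup G) [hN : N.Normal] (hab : ∀ x ∈ N, ∀ y ∈ N, x * y = y * x)
    (hsq : ∀ x ∈ N, x * x = 1) (e : G ⧸ N ≃* A5) : Nonempty (G ≃* aff F4) := by
  classical
  set π : G →* A5 := e.toMonoidHom.comp (QuotientGroup.mk' N) with hπ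
  have hπker : ∀ g, π g = 1 ↔ g ∈ N := by
    intro g
    simp [hπ, QuotientGroup.eq_one_iff]
  have C : Ctx N π := by
    refine ⟨?_, hπker, hab, hsq, ?_⟩
    · intro y
      obtain ⟨q, hq⟩ := e.surjective y
      obtain ⟨g, rfl⟩ := QuotientGroup.mk_surjective q
      exact ⟨g, hq⟩
    · intro g
      have : orderOf g ∈ ({1, 2, 3, 4, 5} : Set ℕ) := hω ▸ ⟨g, rfl⟩
      simpa using this
  have hNbot : N ≠ ⊥ := by
    rintro rfl
    obtain ⟨g, hg⟩ : (4 : ℕ) ∈ Set.range (orderOf : G → ℕ) := by rw [hω]; simp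
    have h4 : g ^ 4 = 1 := by rw [← hg]; exact pow_orderOf_eq_one g
    have h2 : (π g) ^ 2 = 1 := a5_sq_of_four' _ (by rw [← map_pow, h4, map_one])
    have h3 : g ^ 2 ∈ (⊥ : Subgroup G) := (hπker _).1 (by rw [map_pow, h2])
    have h5 : g ^ 2 = 1 := h3
    have h6 := orderOf_dvd_of_pow_eq_one h5
    rw [hg] at h6
    revert h6; decide
  obtain ⟨ι, hι⟩ := C.exists_section
  obtain ⟨κ⟩ := exists_equiv_sl2
  set j : SL2 →* G := ι.comp κ.toMonoidHom with hj
  set p : G →* SL2 := κ.symm.toMonoidHom.comp π with hp'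
  have hp : ∀ A, p (j A) = A := by
    intro A
    simp [hj, hp', hι]
  have hker : ∀ g, p g = 1 ↔ g ∈ N := by
    intro g
    rw [← hπker]
    simp [hp']
  obtain ⟨u, hu, hu1, hfix⟩ := exists_fixed C j hNbot
  haveI hMn := psiRange_normal C j p hp hker hfix hu
  have hMbot : psiRange C j p hp hfix hu ≠ ⊥ := by
    intro h
    have h1 : psi j u e1 ∈ psiRange C j p hp hfix hu := ⟨e1, rfl⟩
    rw [h] at h1
    have he1 : e1 ≠ 0 := by
      intro h0
      have := congrFun h0 0
      exact absurd this (by decide)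
    exact psi_ne j hfix hu1 he1 h1
  have hMN : psiRange C j p hp hfix hu = N := by
    by_contra hne
    exact hMbot (C.crit_bot ι hι hcrit (psiRange_le C j p hp hfix hu) hne)
  have hs : ∀ g ∈ N, ∃ w, psi j u w = g := by
    intro g hg
    rw [← hMN] at hg
    exact hg
  exact ⟨(MulEquiv.ofBijective (xi C j p hp hfix hu)
    ⟨xi_injective C j p hp hker hfix hu hu1, xi_surjective C j p hp hfix hu hker hs⟩).symm⟩

/-- The statement's closure set carries exactly the affine group. -/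
theorem closure_eq_aff :
    Subgroup.closure {M : Matrix.SpecialLinearGroup (Fin 3) F4 |
      (M : Matrix (Fin 3) (Fin 3) F4) 2 0 = 0 ∧ (M : Matrix (Fin 3) (Fin 3) F4) 2 1 = 0 ∧
      (M : Matrix (Fin 3) (Fin 3) F4) 2 2 = 1} = aff F4 :=
  Subgroup.closure_eq (aff F4)

end Main

end Cfsg.Agent.Lib.CritA6
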